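import Mathlib
import Cfsg.Agent.Lib.Basic.ProductCard
import Cfsg.Agent.Lib.Basic.SylowUtil
import Cfsg.Agent.Lib.Solvable.Hall
import Cfsg.Agent.Lib.Solvable.Carter
import Cfsg.Agent.Lib.Solvable.MinimalNormal
import Cfsg.Agent.Lib.Char.Burnside2

set_option autoImplicit false

/-!
# Factorized groups

* `exists_sylow_mul`: if `G = HK`, some Sylow subgroups `P` of `H` and `Q` of `K` have `PQ` Sylow
  in `G`.
* `exists_subgroup_eq_mul_of_hall`: in a solvable `G = HK`, normal Hall subgroups `A` of `H` and `B`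
  of `K` (Hall in `G`) permute.
* `isSolvable_of_three`: Wielandt's theorem on three solvable subgroups of pairwise coprime indices.
-/

namespace Cfsg.Agent.Lib.Solvable.Product

open Subgroup Cfsg.Agent.Lib.Basic.ProductCard
open scoped Pointwise

universe u

variable {G : Type*} [Group G] [Finite G]

theorem exists_mul_of_inv {H K : Subgroup G} (hHK : ∀ g : G, ∃ h ∈ H, ∃ k ∈ K, g = h * k) (g : G) :
    ∃ k ∈ K, ∃ h ∈ H, g = k * h := by
  obtain ⟨h, hh, k, hk, e⟩ := hHK g⁻¹
  refine ⟨k⁻¹, K.inv_mem hk, h⁻¹, H.inv_mem hh, ?_⟩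
  rw [← mul_inv_rev, ← e, inv_inv]

theorem mul_eq_univ {H K : Subgroup G} (hHK : ∀ g : G, ∃ h ∈ H, ∃ k ∈ K, g = h * k) :
    (H : Set G) * (K : Set G) = Set.univ := by
  apply Set.eq_univ_of_forall
  intro g
  obtain ⟨h, hh, k, hk, rfl⟩ := hHK g
  exact Set.mul_mem_mul hh hk

/-- The order formula for a factorization. -/
theorem card_mul_card_inf {H K : Subgroup G} (hHK : ∀ g : G, ∃ h ∈ H, ∃ k ∈ K, g = h * k) :
    Nat.card G * Nat.card (H ⊓ K : Subgroup G) = Nat.card H * Nat.card K := by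
  have h1 := ncard_mul_mul_card_inf H K
  rw [mul_eq_univ hHK, Set.ncard_univ] at h1
  exact h1

/-- **Sylow subgroups of a factorized group**. -/
theorem exists_sylow_mul (H K : Subgroup G) (hHK : ∀ g : G, ∃ h ∈ H, ∃ k ∈ K, g = h * k) (p : ℕ)
    [hp : Fact p.Prime] :
    ∃ (P : Sylow p H) (Q : Sylow p K) (R : Sylow p G), ((R : Subgroup G) : Set G) =
      (((P : Subgroup H).map H.subtype : Subgroup G) : Set G) *
        (((Q : Subgroup K).map K.subtype : Subgroup G) : Set G) := by
  classical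
  let P₀ : Sylow p H := default
  let Q₀ : Sylow p K := default
  obtain ⟨R₀, hR₀⟩ := (P₀.isPGroup'.map H.subtype).exists_le_sylow
  obtain ⟨R₁, hR₁⟩ := (Q₀.isPGroup'.map K.subtype).exists_le_sylow
  obtain ⟨g, hg⟩ := MulAction.exists_smul_eq G R₀ R₁
  obtain ⟨k, hk, h, hh, rfl⟩ := exists_mul_of_inv hHK g
  let R : Sylow p G := h • R₀
  have hR : R = k⁻¹ • R₁ := by
    change h • R₀ = k⁻¹ • R₁
    rw [← hg, ← mul_smul, inv_mul_cancel_left]
  let P : Sylow p H := (⟨h, hh⟩ : H) • P₀
  let Q : Sylow p K := (⟨k⁻¹, K.inv_mem hk⟩ : K) • Q₀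
  refine ⟨P, Q, R, ?_⟩
  set P₂ : Subgroup G := (P : Subgroup H).map H.subtype with hP₂
  set Q₂ : Subgroup G := (Q : Subgroup K).map K.subtype with hQ₂
  have hP₂R : P₂ ≤ R := by
    rintro _ ⟨u, hu, rfl⟩
    have hu' : u ∈ MulAut.conj (⟨h, hh⟩ : H) • (P₀ : Subgroup H) := by
      have : ((P : Sylow p H) : Subgroup H) = MulAut.conj (⟨h, hh⟩ : H) • (P₀ : Subgroup H) :=
        Sylow.coe_subgroup_smul
      rw [← this]
      exact hu
    obtain ⟨v, hv, rfl⟩ := Subgroup.mem_smul_pointwise_iff_exists _ _ _ |>.mp hu'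
    have h1 : (R : Subgroup G) = MulAut.conj h • (R₀ : Subgroup G) := Sylow.coe_subgroup_smul
    rw [h1, Subgroup.mem_smul_pointwise_iff_exists]
    exact ⟨(v : G), hR₀ ⟨v, hv, rfl⟩, rfl⟩
  have hQ₂R : Q₂ ≤ R := by
    rintro _ ⟨u, hu, rfl⟩
    have hu' : u ∈ MulAut.conj (⟨k⁻¹, K.inv_mem hk⟩ : K) • (Q₀ : Subgroup K) := by
      have : ((Q : Sylow p K) : Subgroup K) =
          MulAut.conj (⟨k⁻¹, K.inv_mem hk⟩ : K) • (Q₀ : Subgroup K) := Sylow.coe_subgroup_smul
      rw [← this]
      exact hu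
    obtain ⟨v, hv, rfl⟩ := Subgroup.mem_smul_pointwise_iff_exists _ _ _ |>.mp hu'
    rw [hR]
    have h1 : ((k⁻¹ • R₁ : Sylow p G) : Subgroup G) = MulAut.conj k⁻¹ • (R₁ : Subgroup G) :=
      Sylow.coe_subgroup_smul
    rw [h1, Subgroup.mem_smul_pointwise_iff_exists]
    exact ⟨(v : G), hR₁ ⟨v, hv, rfl⟩, rfl⟩
  symm
  refine Set.eq_of_subset_of_ncard_le ?_ ?_ (Set.toFinite _)
  · rintro _ ⟨a, ha, b, hb, rfl⟩
    exact (R : Subgroup G).mul_mem (hP₂R ha) (hQ₂R hb)
  · -- the count
    have hcP : Nat.card P₂ = p ^ (Nat.card H).factorization p := by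
      rw [hP₂, Subgroup.card_map_of_injective H.subtype_injective]
      exact P.card_eq_multiplicity
    have hcQ : Nat.card Q₂ = p ^ (Nat.card K).factorization p := by
      rw [hQ₂, Subgroup.card_map_of_injective K.subtype_injective]
      exact Q.card_eq_multiplicity
    have hcR : Nat.card (R : Subgroup G) = p ^ (Nat.card G).factorization p :=
      R.card_eq_multiplicity
    have hle : P₂ ⊓ Q₂ ≤ H ⊓ K := by
      apply inf_le_inf
      · rintro _ ⟨u, -, rfl⟩
        exact u.2
      · rintro _ ⟨u, -, rfl⟩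
        exact u.2
    have hP₂p : IsPGroup p P₂ := P.isPGroup'.map _
    have hinfp : IsPGroup p (P₂ ⊓ Q₂ : Subgroup G) := hP₂p.to_le inf_le_left
    obtain ⟨c, hc⟩ := IsPGroup.iff_card.mp hinfp
    have hcdvd : p ^ c ∣ Nat.card (H ⊓ K : Subgroup G) := by
      rw [← hc]
      exact Subgroup.card_dvd_of_le hle
    have hcle : c ≤ (Nat.card (H ⊓ K : Subgroup G)).factorization p :=
      (hp.out.pow_dvd_iff_le_factorization Nat.card_pos.ne').mp hcdvd
    have hfac := card_mul_card_inf hHK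
    have hfac2 : (Nat.card G * Nat.card (H ⊓ K : Subgroup G)).factorization p =
        (Nat.card H * Nat.card K).factorization p := by rw [hfac]
    rw [Nat.factorization_mul Nat.card_pos.ne' Nat.card_pos.ne',
      Nat.factorization_mul Nat.card_pos.ne' Nat.card_pos.ne'] at hfac2
    simp only [Finsupp.add_apply] at hfac2
    have hmul := ncard_mul_mul_card_inf P₂ Q₂
    rw [hc, hcP, hcQ, ← pow_add] at hmul
    have hsz : ((R : Subgroup G) : Set G).ncard = p ^ (Nat.card G).factorization p := by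
      rw [← hcR, ← Nat.card_coe_set_eq]
      rfl
    rw [hsz]
    have h3 : p ^ (Nat.card G).factorization p * p ^ c ≤ ((P₂ : Set G) * (Q₂ : Set G)).ncard * p ^ c := by
      rw [hmul, ← pow_add]
      exact Nat.pow_le_pow_right hp.out.pos (by omega)
    exact Nat.le_of_mul_le_mul_right h3 (pow_pos hp.out.pos c)

/-- Splitting a natural number into the part supported on the primes of `t` and the rest. -/
theorem exists_hallPart (N t : ℕ) (hN : N ≠ 0) :
    ∃ m n : ℕ, N = m * n ∧ m.Coprime n ∧ n.Coprime t ∧ ∀ p : ℕ, p.Prime → p ∣ m → p ∣ t := by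
  classical
  set f := N.factorization with hf
  let g : ℕ → ℕ → ℕ := fun p k => p ^ k
  refine ⟨(f.filter (fun p => p ∣ t)).prod g, (f.filter (fun p => ¬ p ∣ t)).prod g, ?_, ?_, ?_, ?_⟩
  · rw [Finsupp.prod_filter_mul_prod_filter_not]
    exact (Nat.factorization_prod_pow_eq_self hN).symm
  · refine Nat.Coprime.prod_left fun p hp => Nat.Coprime.prod_right fun q hq => ?_
    have hp1 := Finset.mem_of_mem_filter p hp
    have hq1 := Finset.mem_of_mem_filter q hq
    have hp2 := (Finset.mem_filter.mp hp).2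
    have hq2 := (Finset.mem_filter.mp hq).2
    have hpp : p.Prime := Nat.prime_of_mem_primeFactors (by simpa [hf] using hp1)
    have hqq : q.Prime := Nat.prime_of_mem_primeFactors (by simpa [hf] using hq1)
    refine Nat.Coprime.pow _ _ ((Nat.coprime_primes hpp hqq).mpr ?_)
    rintro rfl
    exact hq2 hp2
  · refine Nat.Coprime.prod_left fun q hq => ?_
    have hq1 := Finset.mem_of_mem_filter q hq
    have hq2 := (Finset.mem_filter.mp hq).2
    have hqq : q.Prime := Nat.prime_of_mem_primeFactors (by simpa [hf] using hq1)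
    exact Nat.Coprime.pow_left _ ((Nat.Prime.coprime_iff_not_dvd hqq).mpr hq2)
  · intro p hp hd
    obtain ⟨q, hq, hdq⟩ := (Prime.dvd_finset_prod_iff hp.prime _).mp hd
    have hq2 := (Finset.mem_filter.mp hq).2
    have hq1 := Finset.mem_of_mem_filter q hq
    have hqq : q.Prime := Nat.prime_of_mem_primeFactors (by simpa [hf] using hq1)
    have := (Nat.prime_dvd_prime_iff_eq hp hqq).mp (hp.dvd_of_dvd_pow hdq)
    rw [this]
    exact hq2

/-- Conjugating by a normalizing element. -/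
theorem conj_smul_eq_self {A : Subgroup G} {h : G} (hh : ∀ a ∈ A, h * a * h⁻¹ ∈ A) :
    MulAut.conj h • A = A := by
  exact Cfsg.Agent.Lib.Solvable.Carter.mem_normalizer_iff_conj_smul_eq.mp
    (Cfsg.Agent.Lib.Solvable.Carter.mem_normalizer_of_forall_conj_mem hh)

/-- In a solvable factorized group `G = HK`, a normal subgroup `A` of `H` and a normal subgroup `B`
of `K` which are Hall subgroups of `G` permute. -/
theorem exists_subgroup_eq_mul_of_hall {G : Type u} [Group G] [Finite G] [Group.IsSolvable G]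
    (H K A B : Subgroup G) (hHK : ∀ g : G, ∃ h ∈ H, ∃ k ∈ K, g = h * k)
    (hAnorm : ∀ h ∈ H, ∀ a ∈ A, h * a * h⁻¹ ∈ A) (hBnorm : ∀ k ∈ K, ∀ b ∈ B, k * b * k⁻¹ ∈ B)
    (hAh : (Nat.card A).Coprime A.index) (hBh : (Nat.card B).Coprime B.index) :
    ((A ⊔ B : Subgroup G) : Set G) = (A : Set G) * (B : Set G) := by
  classical
  have hGne : Nat.card G ≠ 0 := Nat.card_pos.ne'
  have hAne : Nat.card A ≠ 0 := Nat.card_pos.ne'
  have hBne : Nat.card B ≠ 0 := Nat.card_pos.ne'
  obtain ⟨m, n, hG, hmn, hnt, hmt⟩ := exists_hallPart (Nat.card G) (Nat.card A * Nat.card B) hGne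
  have hnA : (Nat.card A).Coprime n :=
    (Nat.Coprime.coprime_dvd_right (Dvd.intro _ rfl) hnt).symm
  have hnB : (Nat.card B).Coprime n :=
    (Nat.Coprime.coprime_dvd_right (Dvd.intro_left _ rfl) hnt).symm
  obtain ⟨Y, hY, hAY⟩ := Cfsg.Agent.Lib.Solvable.Hall.exists_le_card_eq m n hG hmn A hnA
  obtain ⟨g, hg⟩ := Cfsg.Agent.Lib.Solvable.Hall.exists_conj_le m n hG hmn Y B hY hnB
  obtain ⟨h, hh, k, hk, rfl⟩ := hHK g
  -- the common overgroup `Y' = h⁻¹ Y h`
  let Y' : Subgroup G := Y.map (MulAut.conj h⁻¹).toMonoidHom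
  have hAY' : A ≤ Y' := by
    intro a ha
    refine ⟨h * a * h⁻¹, hAY (hAnorm h hh a ha), ?_⟩
    simp [MulAut.conj_apply, mul_assoc]
  have hBY' : B ≤ Y' := by
    intro b hb
    -- `k⁻¹ b k ∈ B`, so `h b h⁻¹ = (hk) (k⁻¹ b k) (hk)⁻¹ ∈ Y`.
    have hb' : k⁻¹ * b * k ∈ B := by
      have := hBnorm k⁻¹ (K.inv_mem hk) b hb
      simpa using this
    have h1 : (MulAut.conj (h * k)).toMonoidHom (k⁻¹ * b * k) ∈ Y := hg ⟨_, hb', rfl⟩
    have h2 : (MulAut.conj (h * k)).toMonoidHom (k⁻¹ * b * k) = h * b * h⁻¹ := by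
      simp [MulAut.conj_apply, mul_assoc]
    rw [h2] at h1
    refine ⟨_, h1, ?_⟩
    simp [MulAut.conj_apply, mul_assoc]
  have hY'card : Nat.card Y' = m := by
    rw [← hY]
    exact Cfsg.Agent.Lib.Solvable.Hall.card_map_conj Y h⁻¹
  have hUY : A ⊔ B ≤ Y' := sup_le hAY' hBY'
  have hUm : Nat.card (A ⊔ B : Subgroup G) ∣ m := hY'card ▸ Subgroup.card_dvd_of_le hUY
  have hUG : Nat.card (A ⊔ B : Subgroup G) ∣ Nat.card G := Subgroup.card_subgroup_dvd_card _
  have hUne : Nat.card (A ⊔ B : Subgroup G) ≠ 0 := Nat.card_pos.ne'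
  have hIne : Nat.card (A ⊓ B : Subgroup G) ≠ 0 := Nat.card_pos.ne'
  have hIA : Nat.card (A ⊓ B : Subgroup G) ∣ Nat.card A := Subgroup.card_dvd_of_le inf_le_left
  have hIB : Nat.card (A ⊓ B : Subgroup G) ∣ Nat.card B := Subgroup.card_dvd_of_le inf_le_right
  -- Hall subgroups carry the full `p`-part
  have hfull : ∀ (C : Subgroup G) (p : ℕ), p.Prime → (Nat.card C).Coprime C.index → p ∣ Nat.card C →
      (Nat.card G).factorization p = (Nat.card C).factorization p := by
    intro C p hp hC hd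
    have hi : ¬ p ∣ C.index := fun hd2 => hp.one_lt.ne' (Nat.eq_one_of_dvd_coprimes hC hd hd2)
    rw [← Subgroup.card_mul_index C, Nat.factorization_mul Nat.card_pos.ne' Subgroup.index_ne_zero_of_finite,
      Finsupp.add_apply, Nat.factorization_eq_zero_of_not_dvd hi, add_zero]
  have hdvd : Nat.card (A ⊔ B : Subgroup G) * Nat.card (A ⊓ B : Subgroup G) ∣
      Nat.card A * Nat.card B := by
    rw [← Nat.factorization_le_iff_dvd (mul_ne_zero hUne hIne) (mul_ne_zero hAne hBne)]
    intro p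
    rw [Nat.factorization_mul hUne hIne, Nat.factorization_mul hAne hBne, Finsupp.add_apply,
      Finsupp.add_apply]
    have hfIA := (Nat.factorization_le_iff_dvd hIne hAne).mpr hIA p
    have hfIB := (Nat.factorization_le_iff_dvd hIne hBne).mpr hIB p
    have hfUG := (Nat.factorization_le_iff_dvd hUne hGne).mpr hUG p
    by_cases hp : p.Prime
    · by_cases hpA : p ∣ Nat.card A
      · have := hfull A p hp hAh hpA
        omega
      · by_cases hpB : p ∣ Nat.card B
        · have := hfull B p hp hBh hpB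
          omega
        · have hpt : ¬ p ∣ Nat.card A * Nat.card B := by
            intro h
            rcases (Nat.Prime.dvd_mul hp).mp h with h | h
            · exact hpA h
            · exact hpB h
          have hpm : ¬ p ∣ m := fun h => hpt (hmt p hp h)
          have hpU : ¬ p ∣ Nat.card (A ⊔ B : Subgroup G) := fun h => hpm (h.trans hUm)
          rw [Nat.factorization_eq_zero_of_not_dvd hpU]
          omega
    · rw [Nat.factorization_eq_zero_of_not_prime _ hp, Nat.factorization_eq_zero_of_not_prime _ hp,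
        Nat.factorization_eq_zero_of_not_prime _ hp, Nat.factorization_eq_zero_of_not_prime _ hp]
  have hle1 := Nat.le_of_dvd (Nat.mul_pos Nat.card_pos Nat.card_pos) hdvd
  have hprod := ncard_mul_mul_card_inf A B
  have hsub : (A : Set G) * (B : Set G) ⊆ ((A ⊔ B : Subgroup G) : Set G) := by
    rintro _ ⟨a, ha, b, hb, rfl⟩
    exact (A ⊔ B).mul_mem (Subgroup.mem_sup_left ha) (Subgroup.mem_sup_right hb)
  have hnc : ((A : Set G) * (B : Set G)).ncard ≤ ((A ⊔ B : Subgroup G) : Set G).ncard :=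
    Set.ncard_le_ncard hsub (Set.toFinite _)
  have hUc : ((A ⊔ B : Subgroup G) : Set G).ncard = Nat.card (A ⊔ B : Subgroup G) := by
    rw [← Nat.card_coe_set_eq]
    rfl
  rw [hUc] at hnc
  have heq : Nat.card A * Nat.card B = Nat.card (A ⊔ B : Subgroup G) * Nat.card (A ⊓ B : Subgroup G) := by
    apply le_antisymm _ hle1
    rw [← hprod]
    exact Nat.mul_le_mul_right _ hnc
  exact (mul_eq_sup_of_card_eq A B heq).symm

/-- Two subgroups of coprime indices factorize the group. -/
theorem mul_of_coprime_index {H K : Subgroup G} (h : H.index.Coprime K.index) :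
    ∀ g : G, ∃ a ∈ H, ∃ b ∈ K, g = a * b := by
  classical
  set I := H ⊓ K with hI
  have h1 : I.relIndex H * H.index = I.index := Subgroup.relIndex_mul_index inf_le_left
  have h2 : I.relIndex K * K.index = I.index := Subgroup.relIndex_mul_index inf_le_right
  have hd : H.index * K.index ∣ I.index :=
    Nat.Coprime.mul_dvd_of_dvd_of_dvd h ⟨_, by rw [← h1, mul_comm]⟩ ⟨_, by rw [← h2, mul_comm]⟩
  obtain ⟨e, he⟩ := hd
  have hc1 := Subgroup.card_mul_index H
  have hc2 := Subgroup.card_mul_index K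
  have hc3 := Subgroup.card_mul_index I
  have hprod := ncard_mul_mul_card_inf H K
  have hGpos : 0 < Nat.card G := Nat.card_pos
  have hIpos : 0 < Nat.card I := Nat.card_pos
  have hi1 : 0 < H.index := Nat.pos_of_ne_zero Subgroup.index_ne_zero_of_finite
  have hi2 : 0 < K.index := Nat.pos_of_ne_zero Subgroup.index_ne_zero_of_finite
  have he0 : e ≠ 0 := by
    rintro rfl
    rw [mul_zero] at he
    exact Subgroup.index_ne_zero_of_finite he
  have key : ((H : Set G) * (K : Set G)).ncard = Nat.card G * e := by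
    apply Nat.eq_of_mul_eq_mul_right (Nat.mul_pos hIpos (Nat.mul_pos hi1 hi2))
    calc ((H : Set G) * (K : Set G)).ncard * (Nat.card I * (H.index * K.index))
        = (((H : Set G) * (K : Set G)).ncard * Nat.card I) * (H.index * K.index) := by ring
      _ = (Nat.card H * H.index) * (Nat.card K * K.index) := by rw [hprod]; ring
      _ = Nat.card G * Nat.card G := by rw [hc1, hc2]
      _ = Nat.card G * (Nat.card I * I.index) := by rw [hc3]
      _ = Nat.card G * e * (Nat.card I * (H.index * K.index)) := by rw [he]; ring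
  have huniv : (H : Set G) * (K : Set G) = Set.univ := by
    refine Set.eq_of_subset_of_ncard_le (Set.subset_univ _) ?_ (Set.toFinite _)
    rw [Set.ncard_univ, key]
    exact Nat.le_mul_of_pos_right _ (Nat.pos_of_ne_zero he0)
  intro g
  have hg : g ∈ (H : Set G) * (K : Set G) := by rw [huniv]; trivial
  obtain ⟨a, ha, b, hb, rfl⟩ := hg
  exact ⟨a, ha, b, hb, rfl⟩

/-- **Wielandt's theorem**: a finite group with three solvable subgroups of pairwise coprime indices
is solvable. -/
theorem isSolvable_of_three : ∀ (c : ℕ) (G : Type u) [Group G] [Finite G], Nat.card G = c →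
    ∀ H₁ H₂ H₃ : Subgroup G, Group.IsSolvable H₁ → Group.IsSolvable H₂ → Group.IsSolvable H₃ →
    H₁.index.Coprime H₂.index → H₁.index.Coprime H₃.index → H₂.index.Coprime H₃.index →
    Group.IsSolvable G := by
  intro c
  induction c using Nat.strong_induction_on with
  | _ c ih =>
  intro G _ _ hcard H₁ H₂ H₃ hs₁ hs₂ hs₃ h12 h13 h23
  classical
  have hsolv_top : ∀ L : Subgroup G, L = ⊤ → Group.IsSolvable L → Group.IsSolvable G := by
    rintro L rfl hL
    exact solvable_of_surjective (f := (⊤ : Subgroup G).subtype) (fun g => ⟨⟨g, trivial⟩, rfl⟩)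
  by_cases hbot : H₁ = ⊥
  · -- `H₁` trivial: its index is the group order, so `H₂ = G`.
    have hi : H₁.index = Nat.card G := by rw [hbot, Subgroup.index_bot]
    have hd : H₂.index ∣ Nat.card G := Subgroup.index_dvd_card H₂
    rw [hi] at h12
    have h1 : H₂.index = 1 := Nat.Coprime.eq_one_of_dvd h12.symm hd
    exact hsolv_top H₂ (Subgroup.index_eq_one.mp h1) hs₂
  haveI : Nontrivial H₁ := Subgroup.nontrivial_iff_ne_bot _ |>.mpr hbot
  obtain ⟨p, N, hp, hNn, hNne, hNp, -, -⟩ :=
    Cfsg.Agent.Lib.Solvable.Hall.exists_normal_abelian_pSubgroup H₁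
  haveI : Fact p.Prime := ⟨hp⟩
  -- choose the subgroup `L` among `H₂`, `H₃` of index prime to `p`
  obtain ⟨L, hLs, hLc, hLp, hLrest⟩ : ∃ L : Subgroup G, Group.IsSolvable L ∧
      H₁.index.Coprime L.index ∧ ¬ p ∣ L.index ∧ True := by
    by_cases hp2 : p ∣ H₂.index
    · have hp3 : ¬ p ∣ H₃.index := fun hp3 => hp.one_lt.ne' (Nat.eq_one_of_dvd_coprimes h23 hp2 hp3)
      exact ⟨H₃, hs₃, h13, hp3, trivial⟩
    · exact ⟨H₂, hs₂, h12, hp2, trivial⟩
  let N₁ : Subgroup G := N.map H₁.subtype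
  have hN₁p : IsPGroup p N₁ := hNp.map _
  have hN₁ne : N₁ ≠ ⊥ := by
    intro h
    apply hNne
    exact (Subgroup.map_eq_bot_iff_of_injective _ H₁.subtype_injective).mp h
  -- a Sylow subgroup of `L` is Sylow in `G`
  obtain ⟨S, hS⟩ := Cfsg.Agent.Lib.Basic.SylowUtil.sylow_map_of_not_dvd_index hLp
    (default : Sylow p L)
  have hSL : (S : Subgroup G) ≤ L := by
    rw [hS]
    rintro _ ⟨u, -, rfl⟩
    exact u.2
  obtain ⟨T, hT⟩ := hN₁p.exists_le_sylow
  obtain ⟨g, hg⟩ := Cfsg.Agent.Lib.Basic.SylowUtil.exists_conj_smul_eq T S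
  -- every conjugate of `N₁` lies in `L`
  have hfacL := mul_of_coprime_index hLc.symm
  have hconj : ∀ x : G, ∀ y ∈ N₁, x * y * x⁻¹ ∈ L := by
    have hbase : ∀ y ∈ N₁, g * y * g⁻¹ ∈ L := by
      intro y hy
      apply hSL
      rw [← hg, Subgroup.mem_smul_pointwise_iff_exists]
      exact ⟨y, hT hy, rfl⟩
    have hN₁H : ∀ h ∈ H₁, ∀ y ∈ N₁, h * y * h⁻¹ ∈ N₁ := by
      rintro h hh _ ⟨u, hu, rfl⟩
      exact ⟨⟨h, hh⟩ * u * (⟨h, hh⟩ : H₁)⁻¹, hNn.conj_mem u hu _, rfl⟩
    have hone : ∀ y ∈ N₁, y ∈ L := by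
      intro y hy
      -- `g = l h`, so `l⁻¹ ...`
      obtain ⟨l, hl, h, hh, rfl⟩ := hfacL g
      have h1 := hbase (h⁻¹ * y * h) (by
        have := hN₁H h⁻¹ (H₁.inv_mem hh) y hy
        simpa using this)
      have h2 : l * h * (h⁻¹ * y * h) * (l * h)⁻¹ = l * y * l⁻¹ := by group
      rw [h2] at h1
      have h3 := L.mul_mem (L.mul_mem (L.inv_mem hl) h1) hl
      have h4 : l⁻¹ * (l * y * l⁻¹) * l = y := by group
      rwa [h4] at h3
    intro x y hy
    obtain ⟨l, hl, h, hh, rfl⟩ := hfacL x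
    have h1 := hone _ (hN₁H h hh y hy)
    have h2 : l * h * y * (l * h)⁻¹ = l * (h * y * h⁻¹) * l⁻¹ := by group
    rw [h2]
    exact L.mul_mem (L.mul_mem hl h1) (L.inv_mem hl)
  let M : Subgroup G := L.normalCore
  haveI hMn : M.Normal := Subgroup.normalCore_normal L
  have hN₁M : N₁ ≤ M := fun y hy x => hconj x y hy
  have hMne : M ≠ ⊥ := fun h => hN₁ne (le_bot_iff.mp (h ▸ hN₁M))
  have hMs : Group.IsSolvable M :=
    solvable_of_solvable_injective (f := Subgroup.inclusion (Subgroup.normalCore_le L))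
      (Subgroup.inclusion_injective _)
  have hlt : Nat.card (G ⧸ M) < c := hcard ▸ Cfsg.Agent.Lib.Solvable.MinimalNormal.card_quotient_lt M hMne
  let f := QuotientGroup.mk' M
  have hf : Function.Surjective f := QuotientGroup.mk'_surjective M
  have himg : ∀ X : Subgroup G, Group.IsSolvable X → Group.IsSolvable (X.map f) := by
    intro X hX
    exact solvable_of_surjective (f := f.subgroupMap X) (f.subgroupMap_surjective X)
  have hidx : ∀ X Y : Subgroup G, X.index.Coprime Y.index → (X.map f).index.Coprime (Y.map f).index :=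
    fun X Y h => Nat.Coprime.coprime_dvd_left (Subgroup.index_map_dvd _ hf)
      (Nat.Coprime.coprime_dvd_right (Subgroup.index_map_dvd _ hf) h)
  have hq := ih _ hlt (G ⧸ M) rfl (H₁.map f) (H₂.map f) (H₃.map f) (himg _ hs₁) (himg _ hs₂)
    (himg _ hs₃) (hidx _ _ h12) (hidx _ _ h13) (hidx _ _ h23)
  refine solvable_of_ker_le_range M.subtype f ?_
  rw [QuotientGroup.ker_mk', Subgroup.range_subtype]

/-- The hereditary prime power index condition forces solvability. -/
theorem isSolvable_of_prime_power_index : ∀ (c : ℕ) (G : Type u) [Group G] [Finite G],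
    Nat.card G = c → (∀ H : Subgroup G, H ≠ ⊥ → ∀ p : ℕ, p.Prime → p ∣ Nat.card H →
      ∃ K : Subgroup H, K ≠ ⊤ ∧ ∃ k : ℕ, K.index = p ^ k) → Group.IsSolvable G := by
  intro c
  induction c using Nat.strong_induction_on with
  | _ c ih =>
  intro G _ _ hcard h
  classical
  -- proper subgroups are solvable
  have hsub : ∀ L : Subgroup G, L ≠ ⊤ → Group.IsSolvable L := by
    intro L hL
    refine ih _ (hcard ▸ Cfsg.Agent.Lib.Solvable.Carter.card_lt_of_ne_top hL) L rfl ?_
    intro H' hH' p hp hd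
    let e : H' ≃* H'.map L.subtype := H'.equivMapOfInjective _ L.subtype_injective
    have hne : H'.map L.subtype ≠ ⊥ := fun hb =>
      hH' ((Subgroup.map_eq_bot_iff_of_injective _ L.subtype_injective).mp hb)
    have hd' : p ∣ Nat.card (H'.map L.subtype) := by
      rw [Subgroup.card_map_of_injective L.subtype_injective]
      exact hd
    obtain ⟨K, hK, k, hk⟩ := h _ hne p hp hd'
    refine ⟨K.comap e.toMonoidHom, ?_, k, ?_⟩
    · intro ht
      apply hK
      rw [eq_top_iff]
      intro x _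
      have : e.symm x ∈ K.comap e.toMonoidHom := by rw [ht]; trivial
      simpa using this
    · rw [Subgroup.index_comap_of_surjective K e.surjective]
      exact hk
  -- subgroups of prime power index
  have hidx : ∀ p : ℕ, p.Prime → p ∣ Nat.card G → ∃ L : Subgroup G, L ≠ ⊤ ∧ ∃ k, L.index = p ^ k := by
    intro p hp hd
    have hne : (⊤ : Subgroup G) ≠ ⊥ := by
      intro hb
      have h1 : Nat.card G = 1 := by
        rw [← Subgroup.card_top (G := G), hb, Subgroup.card_bot]
      rw [h1] at hd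
      exact hp.one_lt.ne' (Nat.dvd_one.mp hd)
    obtain ⟨K, hK, k, hk⟩ := h ⊤ hne p hp (by rw [Subgroup.card_top]; exact hd)
    refine ⟨K.map (⊤ : Subgroup G).subtype, ?_, k, ?_⟩
    · intro ht
      apply hK
      rw [eq_top_iff]
      rintro ⟨x, hx⟩ -
      have : x ∈ K.map (⊤ : Subgroup G).subtype := by rw [ht]; trivial
      obtain ⟨y, hy, hyx⟩ := this
      have : y = ⟨x, hx⟩ := Subtype.ext hyx
      rwa [← this]
    · rw [Subgroup.index_map_subtype, Subgroup.index_top, mul_one, hk]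
  set T := (Nat.card G).primeFactors with hT
  have hprod : Nat.card G = ∏ p ∈ T, p ^ (Nat.card G).factorization p :=
    (Nat.factorization_prod_pow_eq_self Nat.card_pos.ne').symm.trans (by
      simp [Finsupp.prod, hT, Nat.support_factorization])
  by_cases h3 : 2 < T.card
  · obtain ⟨p, hp, q, hq, r, hr, hpq, hpr, hqr⟩ := Finset.two_lt_card.mp h3
    have hpp := Nat.prime_of_mem_primeFactors hp
    have hqq := Nat.prime_of_mem_primeFactors hq
    have hrr := Nat.prime_of_mem_primeFactors hr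
    obtain ⟨L₁, hL₁, a, ha⟩ := hidx p hpp (Nat.dvd_of_mem_primeFactors hp)
    obtain ⟨L₂, hL₂, b, hb⟩ := hidx q hqq (Nat.dvd_of_mem_primeFactors hq)
    obtain ⟨L₃, hL₃, d, hd⟩ := hidx r hrr (Nat.dvd_of_mem_primeFactors hr)
    refine isSolvable_of_three _ G rfl L₁ L₂ L₃ (hsub _ hL₁) (hsub _ hL₂) (hsub _ hL₃) ?_ ?_ ?_
    · rw [ha, hb]
      exact Nat.Coprime.pow _ _ ((Nat.coprime_primes hpp hqq).mpr hpq)
    · rw [ha, hd]
      exact Nat.Coprime.pow _ _ ((Nat.coprime_primes hpp hrr).mpr hpr)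
    · rw [hb, hd]
      exact Nat.Coprime.pow _ _ ((Nat.coprime_primes hqq hrr).mpr hqr)
  · have hle : T.card ≤ 2 := by omega
    have h2p : Nat.Prime 2 := Nat.prime_two
    obtain ⟨p, q, hp, hq, a, b, hpq⟩ : ∃ p q : ℕ, p.Prime ∧ q.Prime ∧ ∃ a b : ℕ,
        Nat.card G = p ^ a * q ^ b := by
      interval_cases hc : T.card
      · rw [Finset.card_eq_zero] at hc
        rw [hc, Finset.prod_empty] at hprod
        exact ⟨2, 2, h2p, h2p, 0, 0, by simpa using hprod⟩
      · obtain ⟨p, hp⟩ := Finset.card_eq_one.mp hc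
        rw [hp, Finset.prod_singleton] at hprod
        have hpT : p ∈ T := by rw [hp]; exact Finset.mem_singleton_self p
        exact ⟨p, 2, Nat.prime_of_mem_primeFactors hpT, h2p, _, 0, by simpa using hprod⟩
      · obtain ⟨p, q, hne, hpq⟩ := Finset.card_eq_two.mp hc
        rw [hpq, Finset.prod_pair hne] at hprod
        have hpT : p ∈ T := by rw [hpq]; simp
        have hqT : q ∈ T := by rw [hpq]; simp
        exact ⟨p, q, Nat.prime_of_mem_primeFactors hpT, Nat.prime_of_mem_primeFactors hqT, _, _, hprod⟩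
    exact Cfsg.Agent.Lib.Char.Burnside2.isSolvable_of_card_eq hp hq _ G a b rfl hpq

end Cfsg.Agent.Lib.Solvable.Product
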